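import Cfsg.Agent.OddPre.CN
import Cfsg.Agent.Lib.MinimalNormal
import Mathlib.Algebra.BigOperators.Group.Finset.Basic

/-!
Quotients of CN-groups by solvable normal subgroups are CN-groups.
-/

set_option autoImplicit false

namespace Cfsg.Agent.OddPre.CN

open Subgroup
open scoped Pointwise

universe u

variable {G : Type u} [Group G] [Finite G]

/-- An element fixing a coset of an abelian normal subgroup of coprime order fixes one of its
elements. -/
theorem exists_fixed_in_coset (N : Subgroup G) [N.Normal] (hab : IsMulCommutative N) {a x : G}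
    (hco : (orderOf a).Coprime (Nat.card N)) (hd : a * x * a⁻¹ * x⁻¹ ∈ N) :
    ∃ n ∈ N, a * (n * x) = n * x * a := by
  set m := orderOf a with hm
  set d : G := a * x * a⁻¹ * x⁻¹ with hddef
  have hf : ∀ i : ℕ, a ^ i * x * (a ^ i)⁻¹ * x⁻¹ ∈ N := by
    intro i
    induction i with
    | zero => simp
    | succ i ih =>
      have h := mul_mem ((inferInstance : N.Normal).conj_mem _ ih a) hd
      rwa [show a * (a ^ i * x * (a ^ i)⁻¹ * x⁻¹) * a⁻¹ * d
        = a ^ (i + 1) * x * (a ^ (i + 1))⁻¹ * x⁻¹ by rw [hddef, pow_succ']; group] at h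
  let _ : CommGroup N := { (inferInstance : Group N) with mul_comm := hab.is_comm.comm }
  let f : ℕ → N := fun i => ⟨_, hf i⟩
  let φ : N →* N :=
    { toFun := fun v => ⟨a * v * a⁻¹, (inferInstance : N.Normal).conj_mem _ v.2 a⟩
      map_one' := Subtype.ext (by simp)
      map_mul' := fun v w => Subtype.ext (by simp [mul_assoc]) }
  have hstep : ∀ i, φ (f i) * f 1 = f (i + 1) := fun i => Subtype.ext (by
    show a * (a ^ i * x * (a ^ i)⁻¹ * x⁻¹) * a⁻¹ * (a ^ 1 * x * (a ^ 1)⁻¹ * x⁻¹) = _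
    show _ = a ^ (i + 1) * x * (a ^ (i + 1))⁻¹ * x⁻¹
    rw [pow_one, pow_succ']; group)
  have hf0 : f 0 = 1 := Subtype.ext (by simp [f])
  have hfm : f m = 1 := Subtype.ext (by simp [f, hm, pow_orderOf_eq_one])
  set s := ∏ i ∈ Finset.range m, f i with hs
  have hφs : φ s * f 1 ^ m = s := by
    rw [hs, map_prod]
    conv_lhs =>
      rw [show f 1 ^ m = ∏ _i ∈ Finset.range m, f 1 by rw [Finset.prod_const, Finset.card_range]]
    rw [← Finset.prod_mul_distrib, Finset.prod_congr rfl (fun i _ => hstep i)]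
    have h1 := Finset.prod_range_succ' f m
    rw [hf0, mul_one] at h1
    rw [← h1, Finset.prod_range_succ, hfm, mul_one]
  obtain ⟨y, hy⟩ := (powCoprime hco.symm).surjective (f 1)
  have hy' : y ^ m = f 1 := hy
  -- divide the averaged product by `m`
  obtain ⟨n, hn⟩ := (powCoprime hco.symm).surjective s
  have hn' : n ^ m = s := hn
  have hfix : φ n * f 1 = n := (powCoprime hco.symm).injective (show (φ n * f 1) ^ m = n ^ m by
    rw [mul_pow, ← map_pow, hn', hφs])
  refine ⟨n, n.2, ?_⟩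
  have h2 : a * (n : G) * a⁻¹ * (a ^ 1 * x * (a ^ 1)⁻¹ * x⁻¹) = n := congrArg Subtype.val hfix
  calc a * ((n : G) * x) = a * (n : G) * a⁻¹ * (a ^ 1 * x * (a ^ 1)⁻¹ * x⁻¹) * x * a := by group
    _ = (n : G) * x * a := by rw [h2]

/-- The centraliser in the quotient by an abelian normal `p`-subgroup of the image of a lift of
prime power order. -/
theorem isNilpotent_centralizer_mk (hCN : Cfsg.IsCNGroup G) (N : Subgroup G) [N.Normal]
    (hN : N ≠ ⊥) (hab : IsMulCommutative N) {p : ℕ} [Fact p.Prime] (hNp : IsPGroup p N)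
    {x : G} (hx : x ∉ N) {r : ℕ} (hr : r.Prime) (hxr : ∃ k : ℕ, orderOf x = r ^ k) :
    Group.IsNilpotent (centralizer ({(x : G ⧸ N)} : Set (G ⧸ N))) := by
  have hp : p.Prime := Fact.out
  set f := QuotientGroup.mk' N with hfdef
  set C := centralizer ({(x : G ⧸ N)} : Set (G ⧸ N))
  set L := C.comap f with hL
  have hmem : ∀ l ∈ L, x * l * x⁻¹ * l⁻¹ ∈ N ∧ l * x * l⁻¹ * x⁻¹ ∈ N := by
    intro l hl
    have h1 := mem_cent_iff.1 (show f l ∈ C from hl)
    constructor <;>
    · rw [← QuotientGroup.eq_one_iff]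
      change f _ = 1
      simp only [map_mul, map_inv]
      rw [show (f x) = ((x : G) : G ⧸ N) from rfl]
      first
        | (rw [h1]; group; done)
        | (rw [← h1]; group; done)
  suffices key : ∃ z : G, z ≠ 1 ∧ C ≤ (centralizer ({z} : Set G)).map f by
    obtain ⟨z, hz, hle⟩ := key
    have := hCN z hz
    exact SolvStruct.isNilpotent_of_le hle (Group.nilpotent_of_surjective
      (f.subgroupMap (centralizer ({z} : Set G))) (f.subgroupMap_surjective _))
  have hlift : ∀ c ∈ C, ∃ l ∈ L, f l = c := fun c hc => by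
    obtain ⟨l, rfl⟩ := QuotientGroup.mk'_surjective N c
    exact ⟨l, hc, rfl⟩
  obtain ⟨i, hi⟩ := IsPGroup.iff_card.1 hNp
  rcases eq_or_ne r p with rfl | hne
  swap
  · refine ⟨x, fun e => hx (e ▸ one_mem N), fun c hc => ?_⟩
    obtain ⟨l, hl, rfl⟩ := hlift c hc
    obtain ⟨k, hk⟩ := hxr
    obtain ⟨n, hn, hnc⟩ := exists_fixed_in_coset N hab (a := x) (x := l)
      (by rw [hk, hi]; exact ((Nat.coprime_primes hr hp).2 hne).pow k i) (hmem l hl).1
    refine ⟨n * l, mem_cent_iff.2 hnc.symm, ?_⟩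
    rw [map_mul, show f n = 1 from (QuotientGroup.eq_one_iff n).2 hn, one_mul]
  -- the element is a `p`-element
  obtain ⟨S⟩ : Nonempty (Sylow r L) := inferInstance
  have hNL : N ≤ L := fun v hv => by
    show f v ∈ C
    rw [show f v = 1 from (QuotientGroup.eq_one_iff v).2 hv]
    exact one_mem _
  have hxL : x ∈ L := mem_cent_iff.2 rfl
  have hXnorm : ∀ l ∈ L, ∀ v ∈ N ⊔ zpowers x, l * v * l⁻¹ ∈ N ⊔ zpowers x := by
    intro l hl v hv
    have hle : N ⊔ zpowers x ≤ (N ⊔ zpowers x).comap (MulAut.conj l).toMonoidHom := by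
      refine sup_le (fun v hv => ?_) (zpowers_le.2 ?_)
      · exact mem_sup_left ((inferInstance : N.Normal).conj_mem v hv l)
      · rw [Subgroup.mem_comap]
        show l * x * l⁻¹ ∈ _
        rw [show l * x * l⁻¹ = (l * x * l⁻¹ * x⁻¹) * x by group]
        exact mul_mem (mem_sup_left (hmem l hl).2) (mem_sup_right (mem_zpowers x))
    exact hle hv
  have hXp : IsPGroup r ↥(N ⊔ zpowers x) := by
    obtain ⟨k, hk⟩ := hxr
    exact IsPGroup.to_sup_of_normal_left' hNp
      (IsPGroup.of_card (n := k) (by rw [Nat.card_zpowers, hk]))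
      (le_top.trans (normalizer_eq_top_iff.2 inferInstance).ge)
  have hXL : N ⊔ zpowers x ≤ L := sup_le hNL (zpowers_le.2 hxL)
  have hXn : ((N ⊔ zpowers x).subgroupOf L).Normal := ⟨fun v hv l => hXnorm l l.2 v hv⟩
  have hXS : (N ⊔ zpowers x).subgroupOf L ≤ (S : Subgroup L) := by
    have hp' : IsPGroup r ((N ⊔ zpowers x).subgroupOf L) :=
      hXp.of_equiv (subgroupOfEquivOfLe hXL).symm
    obtain ⟨T, hT⟩ := hp'.exists_le_sylow
    obtain ⟨g, rfl⟩ := MulAction.exists_smul_eq L T S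
    intro v hv
    show v ∈ MulAut.conj g • (T : Subgroup L)
    rw [Subgroup.mem_pointwise_smul_iff_inv_smul_mem]
    exact hT (by simpa using hXn.conj_mem v hv g⁻¹)
  set S' := (S : Subgroup L).map L.subtype with hS'
  have hS'p : IsPGroup r S' := S.2.map _
  have hxS : x ∈ S' := ⟨⟨x, hxL⟩, hXS (mem_sup_right (mem_zpowers x)), rfl⟩
  have hNS : N ≤ S' := fun v hv => ⟨⟨v, hNL hv⟩, hXS (mem_sup_left hv), rfl⟩
  have : Group.IsNilpotent S' := hS'p.isNilpotent
  have hne' : N.subgroupOf S' ⊓ center S' ≠ ⊥ := by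
    refine SolvStruct.nilpotent_inf_center_ne_bot _ (fun e => hN ?_)
    exact le_bot_iff.1 (inf_eq_left.2 hNS ▸ (subgroupOf_eq_bot.1 e).le_bot)
  obtain ⟨z, hz, hz1⟩ := (Subgroup.bot_or_exists_ne_one _).resolve_left hne'
  obtain ⟨hzN, hzc⟩ := mem_inf.1 hz
  have hzN' : (z : G) ∈ N := hzN
  have hzS : ∀ s ∈ S', s * (z : G) = (z : G) * s := fun s hs =>
    congrArg Subtype.val (mem_center_iff.1 hzc ⟨s, hs⟩)
  have hLz : L ≤ centralizer ({(z : G)} : Set G) := by
    rw [← subgroupOf_eq_top, ← index_eq_one]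
    by_contra hne1
    obtain ⟨q, hq, hqd⟩ := Nat.exists_prime_and_dvd hne1
    rcases eq_or_ne q r with rfl | hqr
    · refine S.not_dvd_index (hqd.trans (index_dvd_of_le fun s hs => ?_))
      exact mem_cent_iff.2 (hzS s ⟨s, hs, rfl⟩)
    have : Fact q.Prime := ⟨hq⟩
    obtain ⟨Q⟩ : Nonempty (Sylow q L) := inferInstance
    refine Q.not_dvd_index (hqd.trans (index_dvd_of_le fun a ha => ?_))
    obtain ⟨k, hk⟩ := IsPGroup.iff_orderOf.1 Q.2 ⟨a, ha⟩
    rw [Subgroup.orderOf_mk, ← Subgroup.orderOf_coe] at hk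
    obtain ⟨n, hn, hnc⟩ := exists_fixed_in_coset N hab (a := (a : G)) (x := x)
      (by rw [hk, hi]; exact ((Nat.coprime_primes hq hr).2 hqr).pow k i) (hmem a a.2).2
    have hx' : n * x ≠ 1 := fun e => hx (by
      rw [show x = n⁻¹ * (n * x) by group, e, mul_one]; exact inv_mem hn)
    have hzx : (z : G) * (n * x) = n * x * (z : G) := by
      have h1 : (z : G) * n = n * z :=
        congrArg Subtype.val (hab.is_comm.comm ⟨z, hzN'⟩ ⟨n, hn⟩)
      rw [← mul_assoc, h1, mul_assoc, ← hzS x hxS, ← mul_assoc]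
    refine mem_cent_iff.2 (commute_of_coprime (hCN _ hx') (mem_cent_iff.2 hnc)
      (mem_cent_iff.2 hzx) ?_)
    obtain ⟨j, hj⟩ := IsPGroup.iff_orderOf.1 hNp ⟨z, hzN'⟩
    rw [Subgroup.orderOf_mk] at hj
    exact coprime_of_prime_pow hq hr hqr ⟨k, hk⟩ ⟨j, hj⟩
  refine ⟨z, fun e => hz1 (Subtype.ext e), fun c hc => ?_⟩
  obtain ⟨l, hl, rfl⟩ := hlift c hc
  exact mem_map_of_mem f (hLz hl)

/-- The quotient of a CN-group by an abelian normal `p`-subgroup is a CN-group. -/
theorem isCNGroup_quotient_abelian (hCN : Cfsg.IsCNGroup G) (N : Subgroup G) [N.Normal]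
    (hN : N ≠ ⊥) (hab : IsMulCommutative N) {p : ℕ} [Fact p.Prime] (hNp : IsPGroup p N) :
    Cfsg.IsCNGroup (G ⧸ N) := by
  intro g hg
  obtain ⟨k, hk, -⟩ := exists_prime_order_pow hg
  set r := orderOf (g ^ k) with hr
  refine SolvStruct.isNilpotent_of_le (cent_le_pow g k) ?_
  have : Fact r.Prime := ⟨hk⟩
  obtain ⟨y, hy⟩ := QuotientGroup.mk'_surjective N (g ^ k)
  set m := orderOf y with hm
  obtain ⟨e, m', hm', hme⟩ := Nat.exists_eq_pow_mul_and_not_dvd (orderOf_pos y).ne' r hk.ne_one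
  -- replace the lift by its `r`-part
  obtain ⟨u, hu⟩ := Nat.exists_mul_mod_eq_one_of_coprime
    ((hk.coprime_iff_not_dvd.2 hm').symm) hk.one_lt
  have hord : ∃ j : ℕ, orderOf (y ^ (m' * u)) = r ^ j := by
    have h1 : (y ^ (m' * u)) ^ (r ^ e) = 1 := by
      rw [← pow_mul, ← orderOf_dvd_iff_pow_eq_one, hme]
      exact ⟨u, by ring⟩
    obtain ⟨j, -, hj⟩ := (Nat.dvd_prime_pow hk).1 (orderOf_dvd_of_pow_eq_one h1)
    exact ⟨j, hj⟩
  have himg : (QuotientGroup.mk' N) (y ^ (m' * u)) = g ^ k := by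
    rw [map_pow, hy, pow_eq_pow_iff_modEq.2 (show m' * u ≡ 1 [MOD orderOf (g ^ k)] from by
      rw [Nat.ModEq, ← hr, hu.2, Nat.one_mod_eq_one.2 hk.ne_one]) , pow_one]
  have hnot : y ^ (m' * u) ∉ N := fun h => hk.ne_one (by
    rw [hr, ← himg, show (QuotientGroup.mk' N) (y ^ (m' * u)) = 1 from
      (QuotientGroup.eq_one_iff _).2 h, orderOf_one])
  have := isNilpotent_centralizer_mk hCN N hN hab hNp hnot hk hord
  rwa [show ((y ^ (m' * u) : G) : G ⧸ N) = g ^ k from himg] at this

/-- Being a CN-group is invariant under isomorphism. -/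
theorem isCNGroup_of_mulEquiv {A B : Type*} [Group A] [Group B] (e : A ≃* B)
    (h : Cfsg.IsCNGroup A) : Cfsg.IsCNGroup B := by
  intro b hb
  have h1 := h (e.symm b) (fun he => hb (by simpa using congrArg e he))
  have hle : centralizer ({b} : Set B) ≤ (centralizer ({e.symm b} : Set A)).map e.toMonoidHom := by
    intro c hc
    refine ⟨e.symm c, mem_cent_iff.2 ?_, by simp⟩
    rw [← map_mul, ← map_mul, mem_cent_iff.1 hc]
  exact SolvStruct.isNilpotent_of_le hle (Group.nilpotent_of_surjective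
    (e.toMonoidHom.subgroupMap _) (e.toMonoidHom.subgroupMap_surjective _))

/-- Quotients of CN-groups by solvable normal subgroups are CN-groups. -/
theorem isCNGroup_quotient : ∀ (n : ℕ) (G : Type u) [Group G] [Finite G], Cfsg.IsCNGroup G →
    ∀ (H : Subgroup G) [H.Normal], Group.IsSolvable H → Nat.card H = n →
      Cfsg.IsCNGroup (G ⧸ H) := by
  intro n
  induction n using Nat.strong_induction_on with
  | _ n ih =>
    intro G _ _ hCN H _ hH hn
    rcases eq_or_ne H ⊥ with rfl | hne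
    · exact isCNGroup_of_mulEquiv (QuotientGroup.quotientBot (G := G)).symm hCN
    obtain ⟨N, hNn, hNne, hNH, hmin⟩ := MinNormal.exists_minimal_normal_le H hne
    have : Group.IsSolvable N := solvable_of_solvable_injective (Subgroup.inclusion_injective hNH)
    obtain ⟨hab, p, hp, -, hNp⟩ := MinNormal.elementary_abelian N hNne hmin
    have : Fact p.Prime := ⟨hp⟩
    have hQ := isCNGroup_quotient_abelian hCN N hNne hab hNp
    have hHn : (H.map (QuotientGroup.mk' N)).Normal :=
      Subgroup.Normal.map inferInstance _ (QuotientGroup.mk'_surjective N)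
    have hs : Group.IsSolvable (H.map (QuotientGroup.mk' N)) :=
      solvable_of_surjective ((QuotientGroup.mk' N).subgroupMap_surjective H)
    have hlt : Nat.card (H.map (QuotientGroup.mk' N)) < n := by
      have h1 : Nat.card (H.map (QuotientGroup.mk' N)) = N.relIndex H := by
        conv_rhs => rw [← QuotientGroup.ker_mk' N]
        rw [relIndex_ker]
      have h2 := Subgroup.relIndex_mul_relIndex ⊥ N H bot_le hNH
      rw [relIndex_bot_left, relIndex_bot_left, hn] at h2
      rw [h1, ← h2]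
      have h3 : 1 < Nat.card N := (one_lt_card_iff_ne_bot N).2 hNne
      have h4 : 0 < N.relIndex H := Nat.pos_of_ne_zero fun e => by
        rw [e, mul_zero] at h2
        exact Nat.card_pos.ne' (hn.trans h2.symm)
      exact lt_mul_left h4 h3
    exact isCNGroup_of_mulEquiv (QuotientGroup.quotientQuotientEquivQuotient N H hNH)
      (ih _ hlt (G ⧸ N) hQ (H.map (QuotientGroup.mk' N)) hs rfl)

end Cfsg.Agent.OddPre.CN
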