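import Mathlib.GroupTheory.Transfer
import Mathlib.GroupTheory.Sylow
import Mathlib.GroupTheory.PGroup

/-!
Transfer of a central involution of a Sylow 2-subgroup.
-/

set_option autoImplicit false

namespace Cfsg.Agent.OddPre.CentralTransfer

open Subgroup MulAction Function

variable {G : Type*} [Group G]

theorem exists_index_two_of_hom [Finite G] {A : Type*} [CommGroup A] (V : G →* A) {g : G}
    (h1 : V g ≠ 1) (h2 : V g * V g = 1) : ∃ H : Subgroup G, H.index = 2 := by
  haveI : Fact (Nat.Prime 2) := ⟨Nat.prime_two⟩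
  haveI : Finite V.range := Finite.of_surjective V.rangeRestrict V.rangeRestrict_surjective
  have hne : Nat.card V.range ≠ 0 := Nat.card_pos.ne'
  obtain ⟨a, m, hm, heq⟩ := Nat.exists_eq_two_pow_mul_odd hne
  let W : G →* A := (powMonoidHom m).comp V
  have hWg : W g = V g := by
    obtain ⟨k, rfl⟩ := hm
    show V g ^ (2 * k + 1) = V g
    rw [pow_succ, pow_mul, pow_two, h2, one_pow, one_mul]
  have hp : IsPGroup 2 W.range := by
    intro y
    obtain ⟨x, hx⟩ := y.2
    refine ⟨a, Subtype.ext ?_⟩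
    rw [SubmonoidClass.coe_pow, ← hx, OneMemClass.coe_one]
    show (V x ^ m) ^ 2 ^ a = 1
    rw [← pow_mul, mul_comm m, ← heq]
    have := pow_card_eq_one' (x := (⟨V x, x, rfl⟩ : V.range))
    exact congrArg Subtype.val this
  haveI : Finite W.range := Finite.of_surjective W.rangeRestrict W.rangeRestrict_surjective
  obtain ⟨k, hk⟩ := hp.exists_card_eq
  have hk1 : 1 ≤ k := by
    refine Nat.one_le_iff_ne_zero.2 fun hk0 => h1 ?_
    rw [hk0, pow_zero, Subgroup.card_eq_one] at hk
    have hmem : W g ∈ W.range := ⟨g, rfl⟩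
    rw [hk, Subgroup.mem_bot] at hmem
    rw [← hWg, hmem]
  obtain ⟨L, hL⟩ := Sylow.exists_subgroup_card_pow_prime (G := W.range) 2 (n := k - 1)
    (by rw [hk]; exact pow_dvd_pow 2 (Nat.sub_le k 1))
  refine ⟨L.comap W.rangeRestrict, ?_⟩
  rw [Subgroup.index_comap_of_surjective _ W.rangeRestrict_surjective]
  have h := Subgroup.index_mul_card L
  rw [hL, hk, show k = k - 1 + 1 by omega, pow_succ', show k - 1 + 1 - 1 = k - 1 by omega] at h
  exact Nat.eq_of_mul_eq_mul_right (by positivity) h

/-- If every `N(S)`-conjugate of a central involution `z` of a Sylow 2-subgroup `S` has the same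
image `t` under a homomorphism `φ` of `S` into an abelian group, the transfer maps `z` to `t`. -/
theorem transfer_eq_of_normalizer_conj [Finite G] (S : Sylow 2 G) {A : Type*} [CommGroup A]
    (φ : (S : Subgroup G) →* A) {z : G} (hc : ∀ x ∈ (S : Subgroup G), x * z = z * x)
    (hz2 : z * z = 1) {t : A}
    (hval : ∀ g ∈ Subgroup.normalizer ((S : Subgroup G) : Set G),
      ∃ h : g⁻¹ * z * g ∈ (S : Subgroup G), φ ⟨g⁻¹ * z * g, h⟩ = t) :
    MonoidHom.transfer φ z = t := by
  classical
  haveI : Fact (Nat.Prime 2) := ⟨Nat.prime_two⟩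
  let H : Subgroup G := (S : Subgroup G)
  haveI : Fintype (G ⧸ H) := Fintype.ofFinite _
  haveI : Fintype (Quotient (orbitRel (zpowers z) (G ⧸ H))) := Fintype.ofFinite _
  let ν : G → A := fun g => if h : g⁻¹ * z * g ∈ H then φ ⟨g⁻¹ * z * g, h⟩ else 1
  have hright : ∀ g, ∀ y ∈ H, ν (g * y) = ν g := by
    intro g y hy
    have he : (g * y)⁻¹ * z * (g * y) = y⁻¹ * (g⁻¹ * z * g) * y := by group
    by_cases hg : g⁻¹ * z * g ∈ H
    · have hg' : (g * y)⁻¹ * z * (g * y) ∈ H := by
        rw [he]; exact mul_mem (mul_mem (inv_mem hy) hg) hy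
      simp only [ν, dif_pos hg, dif_pos hg']
      have heq : (⟨_, hg'⟩ : H) = (⟨y, hy⟩ : H)⁻¹ * ⟨_, hg⟩ * ⟨y, hy⟩ := Subtype.ext he
      rw [heq, map_mul, map_mul, map_inv, mul_right_comm, inv_mul_cancel, one_mul]
    · have hg' : (g * y)⁻¹ * z * (g * y) ∉ H := by
        intro hmem
        apply hg
        have : g⁻¹ * z * g = y * ((g * y)⁻¹ * z * (g * y)) * y⁻¹ := by group
        rw [this]; exact mul_mem (mul_mem hy hmem) (inv_mem hy)
      simp only [ν, dif_neg hg, dif_neg hg']
  have hleft : ∀ g, ∀ x ∈ H, ν (x * g) = ν g := by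
    intro g x hx
    have : (x * g)⁻¹ * z * (x * g) = g⁻¹ * z * g := by
      rw [show (x * g)⁻¹ * z * (x * g) = g⁻¹ * (x⁻¹ * (z * x)) * g by group, ← hc x hx,
        inv_mul_cancel_left]
    simp only [ν, this]
  let μ : G ⧸ H → A := fun c => ν c.out
  have hμ : ∀ g : G, μ (g : G ⧸ H) = ν g := by
    intro g
    obtain ⟨y, hy⟩ := QuotientGroup.mk_out_eq_mul H g
    show ν (g : G ⧸ H).out = ν g
    rw [hy, hright g y y.2]
  have hinv : ∀ (x : H) (c : G ⧸ H), μ (x • c) = μ c := by
    intro x c
    induction c using QuotientGroup.induction_on with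
    | _ g =>
      show μ (((x : G) * g : G) : G ⧸ H) = _
      rw [hμ, hμ, hleft g x x.2]
  have hfix : ∀ c : G ⧸ H, z • c = c ↔ c.out⁻¹ * z * c.out ∈ H := by
    intro c
    conv_lhs => rw [← QuotientGroup.out_eq' c, MulAction.Quotient.smul_coe, smul_eq_mul,
      eq_comm, QuotientGroup.eq, ← mul_assoc]
  have hnfix : ∀ c : G ⧸ H, ¬ z • c = c → μ c = 1 := by
    intro c hcc
    show ν c.out = 1
    simp only [ν, dif_neg (mt (hfix c).2 hcc)]
  have hsq : ∀ c, μ c * μ c = 1 := by
    intro c
    show ν c.out * ν c.out = 1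
    by_cases hg : c.out⁻¹ * z * c.out ∈ H
    · simp only [ν, dif_pos hg, ← map_mul]
      rw [← map_one φ]
      refine congrArg φ (Subtype.ext ?_)
      show c.out⁻¹ * z * c.out * (c.out⁻¹ * z * c.out) = 1
      rw [show c.out⁻¹ * z * c.out * (c.out⁻¹ * z * c.out) = c.out⁻¹ * (z * z) * c.out by group,
        hz2, mul_one, inv_mul_cancel]
    · simp only [ν, dif_neg hg, mul_one]
  -- the transfer is the product of `μ` over all cosets
  have htr : MonoidHom.transfer φ z = ∏ c, μ c := by
    rw [MonoidHom.transfer_eq_prod_quotient_orbitRel_zpowers_quot,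
      ← Fintype.prod_fiberwise (Quotient.mk (orbitRel (zpowers z) (G ⧸ H))) μ]
    refine Finset.prod_congr rfl fun q _ => ?_
    have hmem : ∀ c : {c : G ⧸ H // Quotient.mk (orbitRel (zpowers z) (G ⧸ H)) c = q},
        ∃ n : ℤ, z ^ n • q.out = (c : G ⧸ H) := by
      rintro ⟨c, hcq⟩
      obtain ⟨⟨g, n, hn⟩, hg⟩ : c ∈ MulAction.orbit (zpowers z) q.out :=
        Quotient.exact (hcq.trans q.out_eq.symm)
      exact ⟨n, by rw [show z ^ n = g from hn]; exact hg⟩
    by_cases hq : z • q.out = q.out
    · have hper : minimalPeriod (z • ·) q.out = 1 :=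
        Function.minimalPeriod_eq_one_iff_isFixedPt.2 hq
      have hall : ∀ c : {c : G ⧸ H // Quotient.mk (orbitRel (zpowers z) (G ⧸ H)) c = q},
          c = ⟨q.out, q.out_eq⟩ := by
        intro c
        obtain ⟨n, hn⟩ := hmem c
        have : z ^ n • q.out = q.out :=
          MulAction.mem_stabilizer_iff.1 (zpow_mem (MulAction.mem_stabilizer_iff.2 hq) n)
        exact Subtype.ext (hn.symm.trans this)
      rw [Fintype.prod_eq_single ⟨q.out, q.out_eq⟩ fun c hc => absurd (hall c) hc]
      show _ = ν q.out.out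
      have hg := (hfix q.out).1 hq
      simp only [ν, dif_pos hg]
      exact congrArg φ (Subtype.ext (by
        show q.out.out⁻¹ * z ^ _ * q.out.out = _
        rw [hper, pow_one]))
    · have hper : minimalPeriod (z • ·) q.out = 2 := by
        have h2 : IsPeriodicPt (z • ·) 2 q.out := by
          show (z • ·)^[2] q.out = q.out
          simp only [Function.iterate_succ, Function.iterate_zero, Function.comp, id_eq,
            ← mul_smul, hz2, one_smul]
        refine ((Nat.dvd_prime Nat.prime_two).1 h2.minimalPeriod_dvd).resolve_left fun h => hq ?_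
        exact Function.minimalPeriod_eq_one_iff_isFixedPt.1 h
      have hone : ∀ c : {c : G ⧸ H // Quotient.mk (orbitRel (zpowers z) (G ⧸ H)) c = q},
          μ (c : G ⧸ H) = 1 := by
        intro c
        obtain ⟨n, hn⟩ := hmem c
        refine hnfix _ fun h => hq ?_
        rw [← hn, ← mul_smul, ← zpow_one_add, add_comm, zpow_add_one, mul_smul] at h
        exact (MulAction.injective _) h
      rw [Finset.prod_eq_one fun c _ => hone c, ← map_one φ]
      refine congrArg φ (Subtype.ext ?_)
      show q.out.out⁻¹ * z ^ _ * q.out.out = 1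
      rw [hper, pow_two, hz2, mul_one, inv_mul_cancel]
  -- fixed points of `S` on the cosets all take the value `t`
  have hfixS : ∀ c ∈ MulAction.fixedPoints H (G ⧸ H), μ c = t := by
    intro c hcf
    have hN : c.out ∈ Subgroup.normalizer ((H : Subgroup G) : Set G) := by
      have hall : ∀ x ∈ H, c.out⁻¹ * x * c.out ∈ H := by
        intro x hx
        have h : (((x * c.out : G)) : G ⧸ H) = c := by
          have := hcf ⟨x, hx⟩
          rw [← QuotientGroup.out_eq' c] at this
          exact this.trans (QuotientGroup.out_eq' c)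
        have h' : (((x * c.out : G)) : G ⧸ H) = ((c.out : G) : G ⧸ H) :=
          h.trans (QuotientGroup.out_eq' c).symm
        rw [eq_comm, QuotientGroup.eq, ← mul_assoc] at h'
        exact h'
      have : c.out⁻¹ ∈ Subgroup.normalizer ((H : Subgroup G) : Set G) :=
        Subgroup.mem_normalizer_fintype fun x hx => by
          rw [inv_inv]; exact hall x hx
      simpa using inv_mem this
    obtain ⟨hm, hφ⟩ := hval c.out hN
    show ν c.out = t
    simp only [ν, dif_pos (show c.out⁻¹ * z * c.out ∈ H from hm)]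
    exact hφ
  have hidx : ¬ 2 ∣ H.index := S.not_dvd_index
  have hH : IsPGroup 2 H := S.isPGroup'
  have hfixodd : ¬ 2 ∣ Nat.card (MulAction.fixedPoints H (G ⧸ H)) := by
    have := hH.card_modEq_card_fixedPoints (G ⧸ H)
    rw [← Subgroup.index_eq_card] at this
    exact fun hd => hidx ((this.dvd_iff dvd_rfl).2 hd)
  have hfiber : ∀ b : A, (2 ∣ Nat.card {c : G ⧸ H // μ c = b}) ↔ b ≠ t := by
    intro b
    let s : SubMulAction H (G ⧸ H) :=
      { carrier := {c | μ c = b}
        smul_mem' := fun x c hc => (hinv x c).trans hc }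
    have h := hH.card_modEq_card_fixedPoints s
    have hs : Nat.card s = Nat.card {c : G ⧸ H // μ c = b} := rfl
    rw [← hs, ← Nat.modEq_zero_iff_dvd]
    constructor
    · intro h0 hb
      have e : MulAction.fixedPoints H s ≃ MulAction.fixedPoints H (G ⧸ H) :=
        { toFun := fun c => ⟨((c : s) : G ⧸ H), fun x => congrArg Subtype.val (c.2 x)⟩
          invFun := fun c => ⟨⟨c.1, (hfixS c.1 c.2).trans hb.symm⟩, fun x => Subtype.ext (c.2 x)⟩
          left_inv := fun _ => rfl
          right_inv := fun _ => rfl }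
      rw [Nat.card_congr e] at h
      exact hfixodd (Nat.modEq_zero_iff_dvd.1 (h.symm.trans h0))
    · intro hb
      have : IsEmpty (MulAction.fixedPoints H s) := ⟨fun c =>
        hb (((c : s).2).symm.trans (hfixS _ fun x => congrArg Subtype.val (c.2 x)))⟩
      rwa [Nat.card_of_isEmpty (α := MulAction.fixedPoints H s)] at h
  rw [htr, show (∏ c, μ c) = ∏ b ∈ Finset.univ.image μ,
    b ^ (Finset.univ.filter fun c => μ c = b).card from Finset.prod_comp id μ]
  have hcount : ∀ b, (Finset.univ.filter fun c => μ c = b).card = Nat.card {c : G ⧸ H // μ c = b} :=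
    fun b => by rw [Nat.card_eq_fintype_card, Fintype.card_subtype]
  have hb2 : ∀ b ∈ Finset.univ.image μ, b * b = 1 := by
    intro b hb
    obtain ⟨c, -, rfl⟩ := Finset.mem_image.1 hb
    exact hsq c
  have ht : t ∈ Finset.univ.image μ := by
    have : Nat.card {c : G ⧸ H // μ c = t} ≠ 0 := fun h => (hfiber t).1 (h ▸ dvd_zero 2) rfl
    obtain ⟨⟨c, hc'⟩⟩ := (Nat.card_ne_zero.1 this).1
    exact Finset.mem_image.2 ⟨c, Finset.mem_univ _, hc'⟩
  rw [Finset.prod_eq_single t ?_ (fun h => absurd ht h)]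
  · obtain ⟨k, hk⟩ : Odd (Finset.univ.filter fun c => μ c = t).card := by
      rw [hcount, ← Nat.not_even_iff_odd, even_iff_two_dvd, hfiber]
      exact fun h => h rfl
    rw [hk, pow_succ, pow_mul, pow_two, hb2 t ht, one_pow, one_mul]
  · intro b hb hbt
    obtain ⟨k, hk⟩ := (hfiber b).2 hbt
    rw [hcount, hk, pow_mul, pow_two, hb2 b hb, one_pow]

/-- No-index-two consequence. -/
theorem exists_index_two [Finite G] (S : Sylow 2 G) {A : Type*} [CommGroup A]
    (φ : (S : Subgroup G) →* A) {z : G} (hc : ∀ x ∈ (S : Subgroup G), x * z = z * x)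
    (hz2 : z * z = 1) {t : A} (ht : t ≠ 1) (ht2 : t * t = 1)
    (hval : ∀ g ∈ Subgroup.normalizer ((S : Subgroup G) : Set G),
      ∃ h : g⁻¹ * z * g ∈ (S : Subgroup G), φ ⟨g⁻¹ * z * g, h⟩ = t) :
    ∃ H : Subgroup G, H.index = 2 := by
  have h := transfer_eq_of_normalizer_conj S φ hc hz2 hval
  exact exists_index_two_of_hom (MonoidHom.transfer φ) (g := z) (by rwa [h]) (by rwa [h])

end Cfsg.Agent.OddPre.CentralTransfer
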