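import Cfsg.Agent.Known.InvolEigen

/-!
Eight commuting involutive maps of a three-dimensional space in characteristic not two.
-/

set_option autoImplicit false

namespace Cfsg.Agent.OddPre.GLThreeEight

open Module

variable {F V : Type*} [Field F] [AddCommGroup V] [Module F V]

/-- Eight commuting involutions of a 3-dimensional space: their centraliser is commutative and
every involution centralising them is one of them. -/
theorem centralizer_facts [FiniteDimensional F V] (h2 : (2 : F) ≠ 0) (hV : finrank F V = 3)
    {α : Type*} [Finite α] (hα : Nat.card α = 8) (f : α → (V →ₗ[F] V)) (hinj : Function.Injective f)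
    (hcomm : ∀ x y v, f x (f y v) = f y (f x v)) (hsq : ∀ x v, f x (f x v) = v) :
    (∀ S T : V →ₗ[F] V, (∀ x v, S (f x v) = f x (S v)) → (∀ x v, T (f x v) = f x (T v)) →
      ∀ v, S (T v) = T (S v)) ∧
    (∀ S : V →ₗ[F] V, (∀ x v, S (f x v) = f x (S v)) → (∀ v, S (S v) = v) → ∃ x, f x = S) := by
  classical
  obtain ⟨b₀, hb₀⟩ := Known.exists_common_eigenbasis h2 (Set.range f)
    (by rintro _ ⟨x, rfl⟩ _ ⟨y, rfl⟩ v; exact hcomm x y v) (by rintro _ ⟨x, rfl⟩ v; exact hsq x v)
  let b := b₀.reindex (finCongr hV)
  have hb : ∀ x i, f x (b i) = b i ∨ f x (b i) = -b i := fun x i => by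
    simp only [b, Basis.reindex_apply]
    exact hb₀ _ ⟨x, rfl⟩ _
  let g : α → Fin 3 → Bool := fun x i => decide (f x (b i) = b i)
  have hg : Function.Injective g := fun x y h => hinj (Known.signs_injective b (hb x) (hb y)
    fun i => by simpa [g] using congrFun h i)
  have hgs : Function.Surjective g :=
    (hg.bijective_of_nat_card_le (by rw [hα]; simp)).2
  -- each basis line is the fixed space of one of the maps
  have hdiag : ∀ S : V →ₗ[F] V, (∀ x v, S (f x v) = f x (S v)) → ∀ i, S (b i) = b.repr (S (b i)) i • b i := by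
    intro S hS i
    obtain ⟨x, hx⟩ := hgs (fun j => decide (j = i))
    have hxi : f x (b i) = b i := by simpa [g] using congrFun hx i
    have hxj : ∀ j, j ≠ i → f x (b j) = -b j := fun j hj =>
      (hb x j).resolve_left (by simpa [g, hj] using congrFun hx j)
    have hfix : f x (S (b i)) = S (b i) := by rw [← hS, hxi]
    set v := S (b i) with hv
    have hzero : ∀ j, j ≠ i → b.repr v j = 0 := by
      intro j hj
      have hj' : b.repr (f x v) j = -b.repr v j := by
        have : (b.coord j).comp (f x) = -b.coord j := by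
          refine b.ext fun k => ?_
          rw [LinearMap.comp_apply, LinearMap.neg_apply]
          by_cases hk : k = i
          · subst hk; rw [hxi]; simp [Basis.coord_apply, Finsupp.single_apply, Ne.symm hj]
          · rw [hxj k hk, map_neg]
        exact LinearMap.congr_fun this v
      rw [hfix] at hj'
      have h20 : (2 : F) * b.repr v j = 0 := by rw [two_mul]; exact eq_neg_iff_add_eq_zero.1 hj'
      exact (mul_eq_zero.1 h20).resolve_left h2
    conv_lhs => rw [← b.sum_repr v]
    rw [Finset.sum_eq_single i (fun j _ hj => by rw [hzero j hj, zero_smul])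
      (fun h => absurd (Finset.mem_univ i) h)]
  refine ⟨fun S T hS hT => ?_, fun S hS hS2 => ?_⟩
  · have : S.comp T = T.comp S := by
      refine b.ext fun i => ?_
      obtain ⟨c, hc⟩ : ∃ c, S (b i) = c • b i := ⟨_, hdiag S hS i⟩
      obtain ⟨d, hd⟩ : ∃ d, T (b i) = d • b i := ⟨_, hdiag T hT i⟩
      rw [LinearMap.comp_apply, LinearMap.comp_apply, hd, map_smul, hc, map_smul, hd, smul_comm]
    exact LinearMap.congr_fun this
  · have hpm : ∀ i, S (b i) = b i ∨ S (b i) = -b i := by
      intro i
      obtain ⟨c, hc⟩ : ∃ c, S (b i) = c • b i := ⟨_, hdiag S hS i⟩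
      have h := hS2 (b i)
      rw [hc, map_smul, hc, ← mul_smul] at h
      have hh : c * c = 1 := smul_left_injective F (b.ne_zero i) (h.trans (one_smul F (b i)).symm)
      rcases mul_self_eq_one_iff.1 hh with h1 | h1
      · exact Or.inl (by rw [hc, h1, one_smul])
      · exact Or.inr (by rw [hc, h1, neg_one_smul])
    obtain ⟨x, hx⟩ := hgs (fun i => decide (S (b i) = b i))
    exact ⟨x, Known.signs_injective b (hb x) hpm fun i => by simpa [g] using congrFun hx i⟩

end Cfsg.Agent.OddPre.GLThreeEight
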