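import Cfsg.Prelude.Def_CaseTheorems
import Cfsg.Agent.OddPre.GLTwoThree
import Cfsg.Agent.OddPre.Rank2Tower
import Cfsg.Agent.OddPre.CN
import Cfsg.Agent.FusionSys.DihedralAut
import Cfsg.Agent.TwoGroups.UniqueInvolution
import Cfsg.Agent.Cores.Fitting
import Cfsg.Agent.S3742

/-!
Solvable groups without odd core whose Sylow 2-intersections have rank at most one.
-/

set_option autoImplicit false

namespace Cfsg.Agent.OddPre.SmallInter

open Subgroup
open QuaternionGroup (a xa)

theorem q_center_card : Nat.card (Subgroup.center (QuaternionGroup 2)) = 2 := by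
  classical
  have h : (Finset.univ.filter fun z : QuaternionGroup 2 => ∀ g, g * z = z * g).card = 2 := by decide
  rw [Nat.card_eq_fintype_card, Fintype.card_subtype]
  simpa [Subgroup.mem_center_iff] using h

theorem q_pair_rels : ∀ i j : QuaternionGroup 2, i * j ≠ j * i →
    i ^ 4 = 1 ∧ j ^ 2 = i ^ 2 ∧ j * i = i ^ 3 * j ∧ i * i ≠ 1 ∧ j * j ≠ 1 ∧
      (i * j) * (i * j) ≠ 1 ∧ j * (i * j) ≠ (i * j) * j ∧ (i * j) ^ 3 = j * i ∧ j * i * j⁻¹ = i ^ 3 := by
  decide

theorem q_gen : ∀ i j : QuaternionGroup 2, i * j ≠ j * i →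
    ∀ q, ∃ x : Fin 4, ∃ y : Fin 2, q = i ^ (x : ℕ) * j ^ (y : ℕ) := by
  decide

theorem q_inner : ∀ A B : QuaternionGroup 2, A * A ≠ 1 → B * B ≠ 1 → A * a 1 = a 1 * A →
    B * xa 0 = xa 0 * B → ∃ p : QuaternionGroup 2, A = p * a 1 * p⁻¹ ∧ B = p * xa 0 * p⁻¹ := by
  decide

theorem exists_aut {u v : QuaternionGroup 2} (h : u * v ≠ v * u) :
    ∃ φ : MulAut (QuaternionGroup 2), φ (a 1) = u ∧ φ (xa 0) = v := by
  obtain ⟨-, -, -, hu, hv, -⟩ := q_pair_rels u v h
  rcases S3742.exists_index u v with (h1 | h1 | h1 | h1) | ⟨i, hi⟩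
  · exact absurd h1 hu
  · exact absurd h1 hv
  · exact absurd (by rw [h1]) h
  · exact absurd (by rw [h1]; group) h
  · refine ⟨S3742.aut i, ?_, ?_⟩
    · rw [show (S3742.aut i) (a 1) = (S3742.L i).1 from (S3742.dec_pair i).1, hi]
    · rw [show (S3742.aut i) (xa 0) = (S3742.L i).2 from (S3742.dec_pair i).2, hi]

theorem exists_tau {i j : QuaternionGroup 2} (h : i * j ≠ j * i) :
    ∃ τ : MulAut (QuaternionGroup 2), τ i = j ∧ τ j = i * j := by
  obtain ⟨φ, hφ1, hφ2⟩ := exists_aut h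
  obtain ⟨-, -, -, -, -, -, h', -⟩ := q_pair_rels i j h
  obtain ⟨ψ, hψ1, hψ2⟩ := exists_aut h'
  refine ⟨ψ * φ⁻¹, ?_, ?_⟩
  · show ψ (φ.symm i) = j
    rw [← hφ1, MulEquiv.symm_apply_apply, hψ1]
  · show ψ (φ.symm j) = i * j
    rw [← hφ2, MulEquiv.symm_apply_apply, hψ2, hφ2]

/-- An automorphism moving no element outside its centraliser is inner. -/
theorem inner_of_commute {α : MulAut (QuaternionGroup 2)}
    (h : ∀ x, x * α x = α x * x) : ∃ p : QuaternionGroup 2, ∀ x, α x = p * x * p⁻¹ := by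
  have hsq : ∀ x : QuaternionGroup 2, x * x ≠ 1 → α x * α x ≠ 1 := fun x hx e => hx (by
    rwa [← map_mul, map_eq_one_iff _ α.injective] at e)
  obtain ⟨p, hA, hB⟩ := q_inner (α (a 1)) (α (xa 0)) (hsq _ (by decide)) (hsq _ (by decide))
    (h _).symm (h _).symm
  refine ⟨p, fun x => ?_⟩
  obtain ⟨k, l, rfl⟩ := q_gen (a 1) (xa 0) (by decide) x
  rw [map_mul, map_pow, map_pow, hA, hB, conj_pow, conj_pow]
  group

variable {X : Type*} [Group X] [Finite X]

/-- The three possibilities. -/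
theorem classify [Group.IsSolvable X] (hO : Cfsg.oddCore X = ⊥)
    (hI : ∀ S T : Sylow 2 X, S ≠ T → Cfsg.PRankLE 2 1 ↥((S : Subgroup X) ⊓ (T : Subgroup X))) :
    (∃ P : Sylow 2 X, (P : Subgroup X).Normal) ∨ Nonempty (X ≃* GL (Fin 2) (ZMod 3)) ∨
    (Nat.card X = 48 ∧ Nat.card ↥(Subgroup.center X) = 2 ∧
      Nonempty (X ⧸ Subgroup.center X ≃* Equiv.Perm (Fin 4)) ∧
      ∀ P : Sylow 2 X, Nonempty (↥(P : Subgroup X) ≃* QuaternionGroup 4)) := by
  have h2 : Fact (Nat.Prime 2) := ⟨Nat.prime_two⟩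
  rcases subsingleton_or_nontrivial (Sylow 2 X) with hsub | hnt
  · obtain ⟨P⟩ : Nonempty (Sylow 2 X) := inferInstance
    exact Or.inl ⟨P, P.normal_of_subsingleton⟩
  obtain ⟨S, T, hST⟩ := exists_pair_ne (Sylow 2 X)
  have htwo : ¬ IsPGroup 2 X := by
    intro h
    refine hST (Sylow.ext ?_)
    rw [(h.to_subgroup ⊤ |> fun ht => S.is_maximal' ht le_top).symm,
      (h.to_subgroup ⊤ |> fun ht => T.is_maximal' ht le_top).symm]
  set P₀ := Cfsg.pCore 2 X with hP₀
  have hP : IsPGroup 2 P₀ := Cores.pCore_isPGroup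
  have hPle : ∀ R : Sylow 2 X, P₀ ≤ R := Cores.pCore_le_sylow
  have hnX : Nontrivial X := by
    by_contra hn
    rw [not_nontrivial_iff_subsingleton] at hn
    exact htwo fun g => ⟨0, Subsingleton.elim _ _⟩
  have hodd : ∀ q : ℕ, q.Prime → q ≠ 2 → Cfsg.pCore q X = ⊥ := by
    intro q hq hq2
    have : Fact q.Prime := ⟨hq⟩
    refine le_bot_iff.1 (hO ▸ Cores.le_pPrimeCore (p := 2) inferInstance ?_)
    obtain ⟨k, hk⟩ := IsPGroup.iff_card.1 (Cores.pCore_isPGroup (p := q) (G := X))
    rw [hk]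
    exact ((Nat.coprime_primes hq Nat.prime_two).2 hq2).pow_left k
  have hfit : Cfsg.fittingSubgroup X = P₀ := by
    refine le_antisymm ?_ Cores.pCore_le_fittingSubgroup
    rw [Cores.fittingSubgroup_eq_iSup_pCore]
    refine iSup_le fun q => ?_
    rcases eq_or_ne (q : ℕ) 2 with h | h
    · rw [h]
    · rw [hodd q q.2 h]; exact bot_le
  have hcent : centralizer (P₀ : Set X) ≤ P₀ := hfit ▸ Cores.centralizer_fittingSubgroup_le
  -- at most one involution in `P₀`
  have huni : ∀ x ∈ P₀, ∀ y ∈ P₀, orderOf x = 2 → orderOf y = 2 → x = y := by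
    have hc : ∀ x ∈ P₀, ∀ y ∈ P₀, x * y = y * x → orderOf x = 2 → orderOf y = 2 → x = y := by
      intro x hx y hy hxy hxo hyo
      by_contra hne
      set A := Subgroup.closure ({x, y} : Set X) with hA
      have hAle : A ≤ (S : Subgroup X) ⊓ (T : Subgroup X) := by
        rw [hA, closure_le]
        rintro w (rfl | rfl)
        · exact ⟨hPle S hx, hPle T hx⟩
        · exact ⟨hPle S hy, hPle T hy⟩
      have hAc : IsMulCommutative A := by
        refine isMulCommutative_closure ?_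
        rintro u (rfl | rfl) v (rfl | rfl) <;> first | rfl | exact hxy | exact hxy.symm
      have hsq : ∀ w ∈ A, w ^ 2 = 1 := by
        intro w hw
        induction hw using Subgroup.closure_induction with
        | mem w hw =>
          rcases hw with rfl | rfl
          · rw [← hxo, pow_orderOf_eq_one]
          · rw [← hyo, pow_orderOf_eq_one]
        | one => simp
        | mul w v hw hv iw iv =>
          rw [(show Commute w v from congrArg Subtype.val (hAc.is_comm.comm ⟨w, hw⟩ ⟨v, hv⟩)).mul_pow,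
            iw, iv, one_mul]
        | inv w hw iw => rw [inv_pow, iw, inv_one]
      set A' := A.subgroupOf ((S : Subgroup X) ⊓ (T : Subgroup X))
      have h := hI S T hST A' (by
          refine ⟨⟨fun u v => Subtype.ext (Subtype.ext ?_)⟩⟩
          have := congrArg (fun z : A => (z : X)) (hAc.is_comm.comm ⟨_, u.2⟩ ⟨_, v.2⟩)
          simpa using this)
        (fun u hu => Subtype.ext (by simpa using hsq _ hu))
      rw [Nat.card_congr (subgroupOfEquivOfLe hAle).toEquiv] at h
      have hx1 : x ≠ 1 := fun e => by rw [e, orderOf_one] at hxo; omega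
      have hy1 : y ≠ 1 := fun e => by rw [e, orderOf_one] at hyo; omega
      have h3 : ({1, x, y} : Set X) ⊆ (A : Set X) := by
        rintro w (rfl | rfl | rfl)
        · exact one_mem A
        · exact subset_closure (by simp)
        · exact subset_closure (by simp)
      have h4 := Set.ncard_le_ncard h3 (Set.toFinite _)
      rw [Set.ncard_eq_three.2 ⟨1, x, y, hx1.symm, hy1.symm, hne, rfl⟩, ← Nat.card_coe_set_eq] at h4
      have h5 : 3 ≤ 2 ^ 1 := h4.trans h
      omega
    intro x hx y hy hxo hyo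
    have hne : P₀ ≠ ⊥ := fun e => by
      rw [e, Subgroup.mem_bot] at hx; rw [hx, orderOf_one] at hxo; omega
    have : Group.IsNilpotent P₀ := hP.isNilpotent
    obtain ⟨z, hz, hzo, hzc⟩ := CN.exists_central (hP.isNilpotent) Nat.prime_two
      (hxo ▸ Subgroup.orderOf_dvd_natCard _ hx)
    rw [hc x hx z hz (CN.mem_cent_iff.1 (hzc hx)) hxo hzo,
      hc y hy z hz (CN.mem_cent_iff.1 (hzc hy)) hyo hzo]
  -- the action on `P₀`
  set φ : X →* MulAut P₀ := MulAut.conjNormal with hφ
  have hφa : ∀ (g : X) (p : P₀), ((φ g p : P₀) : X) = g * p * g⁻¹ := fun g p =>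
    MulAut.conjNormal_apply g p
  have hker : φ.ker ≤ P₀ := fun g hg => hcent (mem_centralizer_iff.2 fun p hp => by
    have := congrArg (fun e : MulAut P₀ => (((e ⟨p, hp⟩ : P₀)) : X)) (MonoidHom.mem_ker.1 hg)
    simp only [hφa, MulAut.one_apply] at this
    exact (mul_inv_eq_iff_eq_mul.1 this).symm)
  have hcard : Nat.card X = Nat.card φ.range * Nat.card φ.ker := by
    rw [φ.ker.card_eq_card_quotient_mul_card_subgroup,
      Nat.card_congr (QuotientGroup.quotientKerEquivRange φ).toEquiv]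
  have hnot : ¬ IsPGroup 2 φ.range := by
    intro h
    obtain ⟨b, hb⟩ := IsPGroup.iff_card.1 h
    obtain ⟨c, hc⟩ := IsPGroup.iff_card.1 (hP.to_le hker)
    exact htwo (IsPGroup.of_card (n := b + c) (by rw [hcard, hb, hc, pow_add]))
  rcases TwoGroups.cyclic_or_quaternion_of_unique_involution hP (fun x y hx hy =>
      Subtype.ext (huni x x.2 y y.2 (by rwa [Subgroup.orderOf_coe]) (by rwa [Subgroup.orderOf_coe])))
    with hcyc | ⟨n, hn, hn', ⟨e⟩⟩
  · exfalso
    refine hnot (IsPGroup.to_subgroup ?_ _)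
    obtain ⟨k, hk⟩ := IsPGroup.iff_card.1 hP
    rcases Nat.eq_zero_or_pos k with h0 | h0
    · exact IsPGroup.of_card (n := 0) (by rw [IsCyclic.card_mulAut, hk, h0]; simp)
    · exact IsPGroup.of_card (n := k - 1) (by
        rw [IsCyclic.card_mulAut, hk, Nat.totient_prime_pow Nat.prime_two h0]; simp)
  rcases Nat.lt_or_ge 2 n with hn3 | hn3
  · exact absurd ((FusionSys.isPGroup_mulAut_quaternion (n - 1) (by omega)).of_equiv
      (MulAut.congr e).symm |>.to_subgroup _) hnot
  obtain rfl : n = 2 := by omega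
  replace e : P₀ ≃* QuaternionGroup 2 := e
  have hP8 : Nat.card P₀ = 8 := hn'
  have hkerc : φ.ker = (center P₀).map P₀.subtype := by
    ext g
    constructor
    · intro hg
      refine ⟨⟨g, hker hg⟩, mem_center_iff.2 fun p => Subtype.ext ?_, rfl⟩
      have := congrArg (fun e : MulAut P₀ => (((e p : P₀)) : X)) (MonoidHom.mem_ker.1 hg)
      simp only [hφa, MulAut.one_apply] at this
      exact (mul_inv_eq_iff_eq_mul.1 this).symm
    · rintro ⟨g, hg, rfl⟩
      refine MonoidHom.mem_ker.2 (MulEquiv.ext fun p => Subtype.ext ?_)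
      rw [hφa, MulAut.one_apply]
      show (g : X) * p * (g : X)⁻¹ = p
      rw [← show (p : X) * g = g * p from congrArg Subtype.val (mem_center_iff.1 hg p),
        mul_inv_cancel_right]
  have hk2 : Nat.card φ.ker = 2 := by
    rw [hkerc, card_map_of_injective P₀.subtype_injective,
      Nat.card_congr (Subgroup.centerCongr e).toEquiv, q_center_card]
  obtain ⟨σ⟩ := S3742.result
  have haut : Nat.card (MulAut P₀) = 24 := by
    rw [Nat.card_congr ((MulAut.congr e).trans σ).toEquiv, Nat.card_eq_fintype_card, Fintype.card_perm]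
    decide
  have hr24 : Nat.card φ.range ∣ 24 := haut ▸ card_subgroup_dvd_card _
  have h8 : 8 ∣ Nat.card X := hP8 ▸ card_subgroup_dvd_card P₀
  have hr : Nat.card φ.range = 24 := by
    have hne : ∀ k : ℕ, Nat.card φ.range ≠ 2 ^ k := fun k h => hnot (IsPGroup.of_card h)
    rw [hcard, hk2] at h8
    have hle : Nat.card φ.range ≤ 24 := Nat.le_of_dvd (by norm_num) hr24
    by_contra h24
    have h12 : Nat.card φ.range = 12 := by
      have hmem := Nat.mem_divisors.2 ⟨hr24, by norm_num⟩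
      rw [show Nat.divisors 24 = {1, 2, 3, 4, 6, 8, 12, 24} by decide] at hmem
      simp only [Finset.mem_insert, Finset.mem_singleton] at hmem
      rcases hmem with h | h | h | h | h | h | h | h
      · exact absurd h (by simpa using hne 0)
      · exact absurd h (by simpa using hne 1)
      · rw [h] at h8; norm_num at h8
      · exact absurd h (by simpa using hne 2)
      · rw [h] at h8; norm_num at h8
      · exact absurd h (by simpa using hne 3)
      · exact h
      · exact absurd h h24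
    have hS8 : ∀ R : Sylow 2 X, (R : Subgroup X) = P₀ := fun R => by
      refine (Subgroup.eq_of_le_of_card_ge (hPle R) ?_).symm
      rw [R.card_eq_multiplicity, hcard, h12, hk2, hP8,
        show Nat.factorization (12 * 2) 2 = 3 from by
          rw [show (12 * 2 : ℕ) = 2 ^ 3 * 3 by norm_num, Nat.factorization_mul (by norm_num) (by norm_num),
            Nat.Prime.factorization_pow Nat.prime_two]
          simp [Nat.factorization_eq_zero_of_not_dvd]]
      norm_num
    exact hST (Sylow.ext ((hS8 S).trans (hS8 T).symm))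
  have hX : Nat.card X = 48 := by rw [hcard, hr, hk2]
  have hsurj : Function.Surjective φ :=
    MonoidHom.range_eq_top.1 (Subgroup.eq_top_of_card_eq _ (hr.trans haut.symm))
  have hcenter : Subgroup.center X = φ.ker := by
    refine le_antisymm (fun g hg => MonoidHom.mem_ker.2 (MulEquiv.ext fun p => Subtype.ext ?_)) ?_
    · rw [hφa, MulAut.one_apply, ← mem_center_iff.1 hg p, mul_inv_cancel_right]
    · obtain ⟨z, hz1, hzall⟩ : ∃ z : φ.ker, z ≠ 1 ∧ ∀ w : φ.ker, w = 1 ∨ w = z := by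
        obtain ⟨w, hw⟩ := exists_prime_orderOf_dvd_card' (G := φ.ker) 2 (by rw [hk2])
        have hw1 : w ≠ 1 := fun e => by rw [e, orderOf_one] at hw; omega
        refine ⟨w, hw1, fun v => ?_⟩
        by_contra! hv
        have h3 : ({1, w, v} : Set φ.ker).ncard = 3 :=
          Set.ncard_eq_three.2 ⟨1, w, v, hw1.symm, hv.1.symm, hv.2.symm, rfl⟩
        have := Set.ncard_le_card ({1, w, v} : Set φ.ker)
        omega
      intro g hg
      rw [mem_center_iff]
      intro x
      rcases hzall ⟨g, hg⟩ with h | h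
      · rw [show g = 1 from congrArg Subtype.val h]; simp
      · rcases hzall ⟨x * g * x⁻¹, (inferInstance : φ.ker.Normal).conj_mem g hg x⟩ with h' | h'
        · exfalso
          have e' : x * g * x⁻¹ = 1 := congrArg Subtype.val h'
          rw [mul_inv_eq_one, mul_eq_left] at e'
          exact hz1 (h.symm.trans (Subtype.ext e'))
        · exact mul_inv_eq_iff_eq_mul.1 (congrArg Subtype.val (h'.trans h.symm))
  have hsyl : ∀ R : Sylow 2 X, Nat.card (R : Subgroup X) = 16 := fun R => by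
    rw [R.card_eq_multiplicity, hX, show Nat.factorization 48 2 = 4 from by
      rw [show (48 : ℕ) = 2 ^ 4 * 3 by norm_num, Nat.factorization_mul (by norm_num) (by norm_num),
        Nat.Prime.factorization_pow Nat.prime_two]
      simp [Nat.factorization_eq_zero_of_not_dvd]]
    norm_num
  by_cases hex : ∃ u : X, orderOf u = 2 ∧ u ∉ P₀
  swap
  · push Not at hex
    refine Or.inr (Or.inr ⟨hX, by rw [hcenter, hk2], ⟨(QuotientGroup.quotientMulEquivOfEq hcenter).trans
      ((QuotientGroup.quotientKerEquivOfSurjective φ hsurj).trans ((MulAut.congr e).trans σ))⟩,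
      fun R => ?_⟩)
    rcases TwoGroups.cyclic_or_quaternion_of_unique_involution R.2 (fun x y hx hy => Subtype.ext
        (huni x (hex x (by rwa [Subgroup.orderOf_coe])) y (hex y (by rwa [Subgroup.orderOf_coe]))
          (by rwa [Subgroup.orderOf_coe]) (by rwa [Subgroup.orderOf_coe]))) with hc | ⟨m, hm, hm', he⟩
    · exfalso
      let := IsCyclic.commGroup (α := ↥(R : Subgroup X))
      have hh : (a 1 : QuaternionGroup 2) * xa 0 ≠ xa 0 * a 1 := by decide
      refine hh (e.symm.injective ?_)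
      rw [map_mul, map_mul]
      refine Subtype.ext ?_
      exact congrArg (fun z : ↥(R : Subgroup X) => (z : X))
        (mul_comm (⟨_, hPle R (e.symm (a 1)).2⟩ : ↥(R : Subgroup X))
          ⟨_, hPle R (e.symm (xa 0)).2⟩)
    · have hm3 : m = 3 := by
        rw [hsyl R, show (16 : ℕ) = 2 ^ 4 by norm_num] at hm'
        have := Nat.pow_right_injective le_rfl hm'
        omega
      subst hm3
      simpa using he
  -- the case with an involution outside `P₀`
  refine Or.inr (Or.inl ?_)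
  obtain ⟨u, huo, huP⟩ := hex
  have huu : u * u = 1 := by rw [← sq, ← huo, pow_orderOf_eq_one]
  have hu1 : u⁻¹ = u := inv_eq_of_mul_eq_one_left huu
  set α := MulAut.congr e (φ u) with hα
  have hαα : ∀ q, α (α q) = q := fun q => by
    have : φ u * φ u = 1 := by rw [← map_mul, huu, map_one]
    have h1 : (MulAut.congr e (φ u)) * (MulAut.congr e (φ u)) = 1 := by
      rw [← map_mul, this, map_one]
    exact congrArg (fun f : MulAut (QuaternionGroup 2) => f q) h1
  obtain ⟨I, hI'⟩ : ∃ I, I * α I ≠ α I * I := by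
    by_contra! hall
    obtain ⟨p, hp⟩ := inner_of_commute hall
    set pX : P₀ := e.symm p
    have : (pX : X)⁻¹ * u ∈ φ.ker := by
      refine MonoidHom.mem_ker.2 (MulEquiv.ext fun w => e.injective ?_)
      have h1 : e (φ u w) = p * e w * p⁻¹ := by
        rw [← hp (e w)]; simp [hα, MulAut.congr]
      have h2 : φ ((pX : X)⁻¹ * u) w = pX⁻¹ * φ u w * pX := Subtype.ext (by
        rw [hφa]
        simp [hφa, mul_assoc])
      rw [h2, map_mul, map_mul, map_inv, MulEquiv.apply_symm_apply, h1, MulAut.one_apply]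
      group
    refine huP ?_
    have := mul_mem pX.2 (hker this)
    rwa [mul_inv_cancel_left] at this
  set J := α I with hJ
  obtain ⟨hi4, hj2, hji, -, -, -, -, hij3, hjij⟩ := q_pair_rels I J hI'
  obtain ⟨τ, hτi, hτj⟩ := exists_tau hI'
  obtain ⟨t₀, ht₀⟩ := hsurj ((MulAut.congr e).symm τ)
  let f : QuaternionGroup 2 →* X := P₀.subtype.comp e.symm.toMonoidHom
  have hconj : ∀ (g : X) (q : QuaternionGroup 2),
      g * f q * g⁻¹ = f (MulAut.congr e (φ g) q) := fun g q => by
    show g * ((e.symm q : P₀) : X) * g⁻¹ = ((e.symm (e (φ g (e.symm q))) : P₀) : X)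
    rw [MulEquiv.symm_apply_apply, hφa]
  have ht₀τ : MulAut.congr e (φ t₀) = τ := by rw [ht₀, MulEquiv.apply_symm_apply]
  have htτ : MulAut.congr e (φ (t₀ ^ 4)) = τ ^ 4 := by rw [map_pow, map_pow, ht₀τ]
  set i := f I with hi
  set j := f J with hj
  have hu_i : u * i * u⁻¹ = j := hconj u I
  have hu_j : u * j * u⁻¹ = i := by rw [hj, hconj]; exact congrArg f (hαα I)
  have hjij' : J * (I * J) = I := by
    rw [← mul_assoc, hji, mul_assoc, ← sq, hj2, ← pow_add,
      show 3 + 2 = 4 + 1 by norm_num, pow_succ, hi4, one_mul]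
  have hτij : τ (I * J) = I := by rw [map_mul, hτi, hτj, hjij']
  have h41 : (τ ^ 4) I = J := by
    show τ (τ (τ (τ I))) = J
    rw [hτi, hτj, hτij, hτi]
  have h42 : (τ ^ 4) J = I * J := by
    show τ (τ (τ (τ J))) = I * J
    rw [hτj, hτij, hτi, hτj]
  set t := t₀ ^ 4 with ht
  have ht_i : t * i * t⁻¹ = j := by rw [hi, hconj, htτ, h41]
  have ht_j : t * j * t⁻¹ = i * j := by rw [hj, hconj, htτ, h42, map_mul]
  have ht3 : t ^ 3 = 1 := by
    have hmem : t₀ ^ 3 ∈ φ.ker := by
      refine MonoidHom.mem_ker.2 ((MulAut.congr e).injective ?_)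
      rw [map_one, map_pow, map_pow, ht₀τ]
      refine MulEquiv.ext fun q => ?_
      obtain ⟨k, l, rfl⟩ := q_gen I J hI' q
      show (τ ^ 3) (I ^ (k : ℕ) * J ^ (l : ℕ)) = I ^ (k : ℕ) * J ^ (l : ℕ)
      rw [map_mul, map_pow, map_pow, show (τ ^ 3) I = I from by
          show τ (τ (τ I)) = I
          rw [hτi, hτj, hτij],
        show (τ ^ 3) J = J from by
          show τ (τ (τ J)) = J
          rw [hτj, hτij, hτi]]
    have h6 : (t₀ ^ 3) ^ 2 = 1 := by
      have := pow_card_eq_one' (G := φ.ker) (x := ⟨_, hmem⟩)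
      rw [hk2] at this
      exact congrArg Subtype.val this
    rw [ht, ← pow_mul, show 4 * 3 = (3 * 2) * 2 by norm_num, pow_mul, pow_mul, h6, one_pow]
  -- the remaining relation
  have ht2i : t ^ 2 * i = (i * j) * t ^ 2 := by
    calc t ^ 2 * i = t * (t * i * t⁻¹) * t⁻¹ * t ^ 2 := by rw [sq]; group
      _ = (i * j) * t ^ 2 := by rw [ht_i, ht_j]
  have ht2j : t ^ 2 * j = i * t ^ 2 := by
    calc t ^ 2 * j = t * (t * j * t⁻¹) * t⁻¹ * t ^ 2 := by rw [sq]; group
      _ = (t * i * t⁻¹) * (t * j * t⁻¹) * t ^ 2 := by nth_rewrite 1 [ht_j]; group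
      _ = i * t ^ 2 := by
        rw [ht_i, ht_j, show j * (i * j) = i from
          ((congrArg (f J * ·) (map_mul f I J).symm).trans ((map_mul f J (I * J)).symm.trans
            (congrArg f hjij')))]
  obtain ⟨v, hv⟩ : ∃ v : X, v = t ^ 2 * j := ⟨_, rfl⟩
  set w := u * t * u⁻¹ with hw
  have hv3 : v ^ 3 = 1 := by
    have e1 : t ^ 4 = t := by rw [show 4 = 3 + 1 by norm_num, pow_succ, ht3, one_mul]
    have e2 : t * i = j * t := by rw [← ht_i]; group
    calc v ^ 3 = (t ^ 2 * j) * (t ^ 2 * j) * (t ^ 2 * j) := by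
          rw [hv, pow_succ, sq]
      _ = i * (t ^ 2 * i) * (t ^ 2 * i) * t ^ 2 := by rw [ht2j]; group
      _ = i * (i * j) * (t ^ 4 * i) * t ^ 2 := by rw [ht2i]; nth_rewrite 2 [← ht2i]; group
      _ = i * (i * j) * j * t ^ 3 := by rw [e1, e2]; group
      _ = i ^ 2 * j ^ 2 := by rw [ht3, sq, sq]; group
      _ = 1 := by rw [hi, hj, ← map_pow, ← map_pow, hj2, ← map_mul, ← pow_add, hi4, map_one]
  have hw3 : w ^ 3 = 1 := by rw [hw, conj_pow, ht3, mul_one, mul_inv_cancel]
  have hwi : w * i * w⁻¹ = v * i * v⁻¹ := by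
    have e1 : w * i * w⁻¹ = j * i := by
      calc w * i * w⁻¹ = u * (t * (u⁻¹ * i * u) * t⁻¹) * u⁻¹ := by rw [hw]; group
        _ = u * (i * j) * u⁻¹ := by
          rw [show u⁻¹ * i * u = j by rw [← hu_i, hu1], ht_j]
        _ = (u * i * u⁻¹) * (u * j * u⁻¹) := by group
        _ = j * i := by rw [hu_i, hu_j]
    have e2 : v * i * v⁻¹ = j * i := by
      calc v * i * v⁻¹ = t ^ 2 * (j * i * j⁻¹) * (t ^ 2)⁻¹ := by rw [hv]; group
        _ = t ^ 2 * i ^ 3 * (t ^ 2)⁻¹ := by
          rw [show j * i * j⁻¹ = i ^ 3 by rw [hi, hj, ← map_inv, ← map_mul, ← map_mul, hjij, map_pow]]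
        _ = (i * j) ^ 3 := by
          rw [← conj_pow, ht2i, mul_inv_cancel_right]
        _ = j * i := by rw [hi, hj, ← map_mul, ← map_pow, hij3, map_mul]
    rw [e1, e2]
  have hwj : w * j * w⁻¹ = v * j * v⁻¹ := by
    have e1 : w * j * w⁻¹ = i := by
      calc w * j * w⁻¹ = u * (t * (u⁻¹ * j * u) * t⁻¹) * u⁻¹ := by rw [hw]; group
        _ = u * j * u⁻¹ := by rw [show u⁻¹ * j * u = i by rw [← hu_j, hu1], ht_i]
        _ = i := hu_j
    have e2 : v * j * v⁻¹ = i := by
      calc v * j * v⁻¹ = t ^ 2 * j * (t ^ 2)⁻¹ := by simp only [hv]; group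
        _ = i := by rw [ht2j, mul_inv_cancel_right]
    rw [e1, e2]
  have hut : u * t = t ^ 2 * j * u := by
    have hk : v⁻¹ * w ∈ φ.ker := by
      refine MonoidHom.mem_ker.2 ((MulAut.congr e).injective (MulEquiv.ext fun q => ?_))
      apply e.symm.injective.comp (fun x y h => h)
      apply P₀.subtype_injective
      show f (MulAut.congr e (φ (v⁻¹ * w)) q) = f ((MulAut.congr e 1) q)
      rw [← hconj, map_one, MulAut.one_apply]
      obtain ⟨k, l, rfl⟩ := q_gen I J hI' q
      rw [map_mul, map_pow, map_pow]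
      have hci : (v⁻¹ * w) * i * (v⁻¹ * w)⁻¹ = i := by
        calc (v⁻¹ * w) * i * (v⁻¹ * w)⁻¹ = v⁻¹ * (w * i * w⁻¹) * v := by group
          _ = i := by rw [hwi]; group
      have hcj : (v⁻¹ * w) * j * (v⁻¹ * w)⁻¹ = j := by
        calc (v⁻¹ * w) * j * (v⁻¹ * w)⁻¹ = v⁻¹ * (w * j * w⁻¹) * v := by group
          _ = j := by rw [hwj]; group
      rw [← hi, ← hj, ← conj_mul, ← conj_pow, ← conj_pow, hci, hcj]
    set k := v⁻¹ * w
    have hk2' : k * k = 1 := by
      have := pow_card_eq_one' (G := φ.ker) (x := ⟨k, hk⟩)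
      rw [hk2, sq] at this
      exact congrArg Subtype.val this
    have hkc : Commute v k := mem_center_iff.1 (hcenter ▸ hk) v
    have hwk : w = v * k := by simp [k]
    have : k = 1 := by
      have h := hw3
      rw [hwk, hkc.mul_pow, hv3, one_mul, pow_succ, sq, hk2', one_mul] at h
      exact h
    rw [this, mul_one] at hwk
    calc u * t = w * u := by rw [hw]; group
      _ = t ^ 2 * j * u := by rw [hwk, hv]
  have hrels : GLTwoThree.Rels i j t u :=
    { hi := by rw [hi, ← map_pow, hi4, map_one]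
      hj := (map_pow f J 2).symm.trans ((congrArg f hj2).trans (map_pow f I 2))
      hji := (map_mul f J I).symm.trans ((congrArg f hji).trans
        ((map_mul f (I ^ 3) J).trans (congrArg (· * f J) (map_pow f I 3))))
      ht := ht3
      hti := by rw [← ht_i]; group
      htj := by rw [← ht_j]; group
      hu := huu
      hui := by rw [← hu_i]; group
      huj := by rw [← hu_j]; group
      hut := hut }
  refine GLTwoThree.nonempty_equiv hrels ?_ hX.ge
  set C := Subgroup.closure ({i, j, t, u} : Set X)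
  have hPC : P₀ ≤ C := by
    intro p hp
    obtain ⟨k, l, hkl⟩ := q_gen I J hI' (e ⟨p, hp⟩)
    have : p = i ^ (k : ℕ) * j ^ (l : ℕ) := by
      rw [hi, hj, ← map_pow, ← map_pow, ← map_mul, ← hkl]
      show p = ((e.symm (e ⟨p, hp⟩) : P₀) : X)
      rw [MulEquiv.symm_apply_apply]
    rw [this]
    exact mul_mem (pow_mem (subset_closure (by simp)) _) (pow_mem (subset_closure (by simp)) _)
  have h16 : 16 ∣ Nat.card C := by
    have hp : IsPGroup 2 ↥(P₀ ⊔ zpowers u) :=
      IsPGroup.to_sup_of_normal_left' hP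
        (IsPGroup.of_card (n := 1) (by rw [Nat.card_zpowers, huo, pow_one]))
        (le_top.trans (normalizer_eq_top_iff.2 inferInstance).ge)
    obtain ⟨m, hm⟩ := IsPGroup.iff_card.1 hp
    refine dvd_trans ?_ (card_dvd_of_le
      (sup_le hPC (zpowers_le.2 (subset_closure (by simp))) : P₀ ⊔ zpowers u ≤ C))
    rw [hm, show (16 : ℕ) = 2 ^ 4 by norm_num]
    refine pow_dvd_pow 2 ?_
    by_contra hlt
    have hle : Nat.card ↥(P₀ ⊔ zpowers u) ≤ Nat.card P₀ := by
      rw [hm, hP8, show (8 : ℕ) = 2 ^ 3 by norm_num]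
      exact Nat.pow_le_pow_right two_pos (by omega)
    exact huP ((Subgroup.eq_of_le_of_card_ge le_sup_left hle).symm ▸ mem_sup_right (mem_zpowers u))
  have h3 : 3 ∣ Nat.card C := by
    have ht1 : t ≠ 1 := fun e1 => hI' (by
      have : i = j := by rw [← ht_i, e1]; group
      rw [P₀.subtype_injective.comp e.symm.injective this])
    rw [← orderOf_eq_prime ht3 ht1]
    exact Subgroup.orderOf_dvd_natCard _ (subset_closure (by simp))
  exact Subgroup.eq_top_of_le_card _ (hX ▸ Nat.le_of_dvd Nat.card_pos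
    ((by norm_num : Nat.Coprime 16 3).mul_dvd_of_dvd_of_dvd h16 h3))

open scoped Pointwise

/-- The hypothesis passes to the quotient by a normal subgroup of odd order. -/
theorem quotient_hyp {G : Type*} [Group G] [Finite G] (N : Subgroup G) [N.Normal]
    (hN : Odd (Nat.card N))
    (hI : ∀ S T : Sylow 2 G, S ≠ T → Cfsg.PRankLE 2 1 ↥((S : Subgroup G) ⊓ (T : Subgroup G))) :
    ∀ S T : Sylow 2 (G ⧸ N), S ≠ T →
      Cfsg.PRankLE 2 1 ↥((S : Subgroup (G ⧸ N)) ⊓ (T : Subgroup (G ⧸ N))) := by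
  have h2 : Fact (Nat.Prime 2) := ⟨Nat.prime_two⟩
  intro Sb Tb hne A hAc hA2
  have hsur := QuotientGroup.mk'_surjective N
  obtain ⟨S, rfl⟩ := Sylow.mapSurjective_surjective hsur 2 Sb
  obtain ⟨T, rfl⟩ := Sylow.mapSurjective_surjective hsur 2 Tb
  set f := QuotientGroup.mk' N with hf
  have hinj : ∀ x ∈ (S : Subgroup G), f x = 1 → x = 1 := by
    intro x hx hfx
    obtain ⟨k, hk⟩ := IsPGroup.iff_orderOf.1 S.2 ⟨x, hx⟩
    rw [Subgroup.orderOf_mk] at hk
    refine orderOf_eq_one_iff.1 (Nat.eq_one_of_dvd_coprimes ?_ dvd_rfl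
      (Subgroup.orderOf_dvd_natCard N ((QuotientGroup.eq_one_iff x).1 hfx)))
    rw [hk]
    exact (Nat.coprime_two_left.2 hN).pow_left k
  set A' := A.map ((S.mapSurjective hsur : Subgroup (G ⧸ N)) ⊓ (T.mapSurjective hsur : Subgroup (G ⧸ N))).subtype
  set E := (S : Subgroup G) ⊓ A'.comap f with hE
  have hEmap : E.map f = A' := by
    refine le_antisymm (by rintro _ ⟨x, hx, rfl⟩; exact (mem_inf.1 hx).2) fun y hy => ?_
    obtain ⟨z, hz, rfl⟩ := hy
    obtain ⟨x, hx, hxy⟩ := (mem_inf.1 z.2).1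
    exact ⟨x, mem_inf.2 ⟨hx, by show f x ∈ A'; rw [hxy]; exact ⟨z, hz, rfl⟩⟩, hxy⟩
  have hEcard : Nat.card A ≤ Nat.card E := by
    rw [← card_map_of_injective (K := A) (Subgroup.subtype_injective _)]
    show Nat.card A' ≤ _
    rw [← hEmap]
    exact Nat.le_of_dvd Nat.card_pos (E.card_map_dvd f)
  set M := ((T : Subgroup G).map f).comap f with hM
  have hEM : E ≤ M := by
    intro x hx
    obtain ⟨z, -, hz⟩ := (mem_inf.1 hx).2
    show f x ∈ (T : Subgroup G).map f
    rw [← hz]
    exact (mem_inf.1 z.2).2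
  have hTM : (T : Subgroup G) ≤ M := fun x hx => mem_map_of_mem f hx
  obtain ⟨Q, hQ⟩ := ((S.2.to_le (inf_le_left : E ≤ S)).of_equiv
    (subgroupOfEquivOfLe hEM).symm).exists_le_sylow
  obtain ⟨m, hm⟩ := MulAction.exists_smul_eq M (T.subtype hTM) Q
  set T' := (m : G) • T with hT'
  have hET : E ≤ (T' : Subgroup G) := by
    intro x hx
    have h1 : (⟨x, hEM hx⟩ : M) ∈ (Q : Subgroup M) := hQ hx
    rw [← hm] at h1
    obtain ⟨y, hy, hyx⟩ := h1
    exact ⟨y, hy, congrArg Subtype.val hyx⟩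
  have hST : S ≠ T' := by
    intro he
    refine hne (Sylow.ext ?_)
    show (S : Subgroup G).map f = (T : Subgroup G).map f
    rw [he]
    obtain ⟨t, ht, hft⟩ := (m.2 : f m ∈ (T : Subgroup G).map f)
    refine le_antisymm ?_ ?_
    · rintro _ ⟨_, ⟨y, hy, rfl⟩, rfl⟩
      refine ⟨t * y * t⁻¹, mul_mem (mul_mem ht hy) (inv_mem ht), ?_⟩
      show _ = f ((m : G) * y * (m : G)⁻¹)
      simp [hft]
    · rintro _ ⟨y, hy, rfl⟩
      refine ⟨(m : G) * (t⁻¹ * y * t) * (m : G)⁻¹, ⟨t⁻¹ * y * t, mul_mem (mul_mem (inv_mem ht) hy) ht,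
        rfl⟩, ?_⟩
      simp [← hft, mul_assoc]
  have hle : E ≤ (S : Subgroup G) ⊓ (T' : Subgroup G) := le_inf inf_le_left hET
  have key : ∀ x ∈ E, ∀ y ∈ E, x * y = y * x ∧ x ^ 2 = 1 := by
    intro x hx y hy
    obtain ⟨u, hu, hu'⟩ := (mem_inf.1 hx).2
    obtain ⟨v, hv, hv'⟩ := (mem_inf.1 hy).2
    have hxS := (mem_inf.1 hx).1
    have hyS := (mem_inf.1 hy).1
    constructor
    · refine mul_inv_eq_one.1 (hinj _ (mul_mem (mul_mem hxS hyS) (inv_mem (mul_mem hyS hxS))) ?_)
      rw [map_mul, map_inv, map_mul, map_mul, ← hu', ← hv', mul_inv_eq_one, ← map_mul, ← map_mul]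
      exact congrArg _ (congrArg Subtype.val (hAc.is_comm.comm ⟨u, hu⟩ ⟨v, hv⟩))
    · refine hinj _ (pow_mem hxS 2) ?_
      rw [map_pow, ← hu', ← map_pow, hA2 u hu, map_one]
  have h := hI S T' hST (E.subgroupOf _)
    ⟨⟨fun u v => Subtype.ext (Subtype.ext (by simpa using (key _ u.2 _ v.2).1))⟩⟩
    (fun u hu => Subtype.ext (by simpa using (key _ hu _ hu).2))
  rw [Nat.card_congr (subgroupOfEquivOfLe hle).toEquiv] at h
  exact hEcard.trans h

end Cfsg.Agent.OddPre.SmallInter
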